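import Mathlib
import Cfsg.Agent.Lib.Blocks.Stable
import Cfsg.Agent.Lib.Blocks.Inducing
import Cfsg.Agent.Lib.Blocks.FMT
import Cfsg.Agent.Lib.BlockH.Idem
import Cfsg.Agent.Lib.BlockP.Defect

/-!
# The extended first main theorem: the criterion in terms of the stabilizer

`P` a `p`-subgroup, `H = P C_G(P)`, `b` a block of `H` with defect group `P`, `T` the stabilizer of `b`
in `N_G(P)`: `b^G` has defect group `P` if and only if `p ∤ [T : H]`.
-/

set_option linter.unusedSectionVars false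
set_option autoImplicit false
set_option linter.style.haveILetI false

namespace Cfsg.Agent.Lib.Blocks.ExtCrit

open Cfsg MonoidAlgebra
open Cfsg.Agent.Lib.Blocks.Local Cfsg.Agent.Lib.Blocks.Central Cfsg.Agent.Lib.Blocks.Brauer
open Cfsg.Agent.Lib.Blocks.Induced Cfsg.Agent.Lib.Blocks.Heights
open Cfsg.Agent.Lib.Char.Basic Cfsg.Agent.Lib.Char.Ortho Cfsg.Agent.Lib.Char.Complete
open Cfsg.Agent.Lib.Char.Induced Cfsg.Agent.Lib.Char.IndRep Cfsg.Agent.Lib.Char.Clifford
open Cfsg.Agent.Lib.Char.Conj Cfsg.Agent.Lib.Char.CliffordCorr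
open Cfsg.Agent.Lib.BlockH.MaxPair Cfsg.Agent.Lib.BlockH.StabBlock Cfsg.Agent.Lib.BlockH.BrauerMap
open Cfsg.Agent.Lib.BlockH.Transport Cfsg.Agent.Lib.BlockH.Pairs Cfsg.Agent.Lib.Blocks.FMT
open Cfsg.Agent.Lib.BlockT.Normal Cfsg.Agent.Lib.Blocks.ExtFMT Cfsg.Agent.Lib.Blocks.FR
open Cfsg.Agent.Lib.Blocks.FR2 Cfsg.Agent.Lib.Blocks.Stable Cfsg.Agent.Lib.Blocks.Inducing
open Cfsg.Agent.Lib.Blocks.Defect2 Cfsg.Agent.Lib.BlockT.SylowIn
open scoped ComplexConjugate

universe u

section Ambient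

variable {G : Type u} [Group G] [Fintype G] [Fintype (IrrCharacter G)] {N : Subgroup G} {hN : N.Normal}
  [Fintype N] [Fintype (IrrCharacter N)] {M : Ideal AlgInt} [hMp : M.IsPrime]
  {T : Subgroup G} [Fintype T] [Fintype (IrrCharacter T)] {b : Set (IrrCharacter N)} {p : ℕ} [hp : Fact p.Prime]

/-- The defect of the block over a stable block. -/
theorem blockDefect_of_stable (hM : IsPModular p M) (hb : IsPBlock M b)
    (hNT : N ≤ T) (hS : IsStab hN b T) {ψ : IrrCharacter T} (hψ : omegaHom ψ (eT hN b hS) = 1)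
    (hsupp : ∀ t : T, (t : G) ∉ N → blockCoeff (blockOf M (ψ : T → ℂ)) t = 0) :
    blockDefect p (blockOf M (ψ : T → ℂ)) = blockDefect p b + (N.relIndex T).factorization p := by
  obtain ⟨y, hy⟩ := exists_isDefectClass (M := M) (B := blockOf M (ψ : T → ℂ)) ⟨ψ, rfl⟩
  obtain ⟨hyN, m, hm, hdef, hidx⟩ := defect_class_of_stable hM hb hNT hS hψ hsupp hy
  have hnum := card_centralizer_mul hyN hNT hidx
  have h1 := Cfsg.Agent.Lib.BlockP.Defect.factorization_centralizer_eq hM ⟨ψ, rfl⟩ hy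
  have h2 := Cfsg.Agent.Lib.BlockP.Defect.factorization_centralizer_eq hM hb hdef
  rw [← h1, ← h2]
  have hA : Nat.card (Subgroup.centralizer ({y} : Set T)) ≠ 0 := Nat.card_pos.ne'
  have hC : Nat.card (Subgroup.centralizer ({(⟨y, hyN⟩ : N)} : Set N)) ≠ 0 := Nat.card_pos.ne'
  have hm0 : m ≠ 0 := fun h => hm (h ▸ dvd_zero p)
  have hr : N.relIndex T ≠ 0 := by
    exact Subgroup.index_ne_zero_of_finite
  have h3 : (Nat.card (Subgroup.centralizer ({y} : Set T)) * m).factorization p =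
      (Nat.card (Subgroup.centralizer ({(⟨y, hyN⟩ : N)} : Set N)) * N.relIndex T).factorization p := by
    rw [hnum]
  rw [Nat.factorization_mul hA hm0, Nat.factorization_mul hC hr] at h3
  simp only [Finsupp.add_apply] at h3
  rw [Nat.factorization_eq_zero_of_not_dvd hm, add_zero] at h3
  exact h3

/-- **The defect of a block covering a block of `N ⊇ C(Q)`**, `Q` a normal `p`-subgroup. -/
theorem blockDefect_covering (hM : IsPModular p M) (hb : IsPBlock M b) (hNT : N ≤ T) (hS : IsStab hN b T)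
    [Fintype (G ⧸ T)] {Q : Subgroup G} (hQn : Q.Normal) (hQp : IsPGroup p Q) (hQN : Q ≤ N)
    (hCN : Subgroup.centralizer (Q : Set G) ≤ N) {B₁ : Set (IrrCharacter G)} (hB₁ : IsPBlock M B₁)
    (hcov : ∃ χ ∈ B₁, ∃ θ ∈ b, classInner (fun n : N => (χ : G → ℂ) n) (θ : N → ℂ) ≠ 0) :
    blockDefect p B₁ = blockDefect p b + (N.relIndex T).factorization p := by
  classical
  obtain ⟨B', hB', ⟨ψ, hψB', θ, hθ, hcon⟩, hind⟩ := fr_part_three hb hNT hS hB₁ hcov
  have hψ : omegaHom ψ (eT hN b hS) = 1 := (omega_eT_eq_one_iff hNT hS ψ).mpr ⟨θ, hθ, hcon⟩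
  have hB'e := isPBlock_eq_blockOf hB' hψB'
  have hsupp : ∀ t : T, (t : G) ∉ N → blockCoeff (blockOf M (ψ : T → ℂ)) t = 0 := by
    intro t ht
    refine Cfsg.Agent.Lib.BlockH.Idem.blockCoeff_eq_zero_of_not_mem_centralizer hM (Q.subgroupOf T)
      (hQn.subgroupOf T) (hQp.comap_of_injective _ (Subgroup.subtype_injective _)) ⟨ψ, rfl⟩ ?_
    intro h0
    apply ht
    apply hCN
    rw [Subgroup.mem_centralizer_iff] at h0 ⊢
    intro q hq
    have h1 := h0 ⟨q, hNT (hQN hq)⟩ (Subgroup.mem_subgroupOf.mpr hq)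
    exact congrArg (fun x : T => (x : G)) h1
  have h1 := blockDefect_of_stable hM hb hNT hS hψ hsupp
  rw [← hB'e] at h1
  rw [← h1]
  obtain ⟨D', hD'⟩ := exists_isDefectGroup (p := p) hB'
  have hD₁ := (fr_defect hM hb hNT hS hB' ⟨ψ, hψB', θ, hθ, hcon⟩ hind).1 D' hD'
  have h2 := card_eq_pow_blockDefect hM hB₁ hD₁
  have h3 := card_eq_pow_blockDefect hM hB' hD'
  have h4 : Nat.card (D'.map T.subtype) = Nat.card D' :=
    Subgroup.card_map_of_injective (Subgroup.subtype_injective _)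
  rw [h4, h3] at h2
  exact (Nat.pow_right_injective hp.out.two_le h2).symm

end Ambient

section Wrapper

variable {G : Type u} [Group G] [Fintype G] [Fintype (IrrCharacter G)] {M : Ideal AlgInt} {p : ℕ}
  [hMp : M.IsPrime] [hp : Fact p.Prime] {L P : Subgroup G} [Fintype L] [Fintype (IrrCharacter L)]
  [Fintype (Subgroup.normalizer (P : Set G))]
  [Fintype (IrrCharacter (Subgroup.normalizer (P : Set G)))]

/-- A character of `N(P)` on the block of the orbit lies over a member of the block. -/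
theorem exists_mem_of_omega_upOrbit
    (hPL : Cfsg.Agent.Lib.Blocks.Induced.IsBrauerPair p P L)
    (hnorm : Subgroup.normalizer (P : Set G) ≤ Subgroup.normalizer (L : Set G))
    (b : Set (IrrCharacter L)) (ξ : IrrCharacter (Subgroup.normalizer (P : Set G)))
    (hξ : omegaHom ξ (upOrbit hPL hnorm b) = 1) :
    ∃ θ ∈ b, classInner (res hPL.le_normalizer (ξ : _ → ℂ)) (θ : L → ℂ) ≠ 0 := by
  classical
  have h1 := omegaHom_apply ξ (upOrbit hPL hnorm b)
  rw [hξ, lin_apply] at h1
  have hξ1 := irr_one_ne_zero ξ.2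
  have h2 : ∑ t : Subgroup.normalizer (P : Set G),
      ((upOrbit hPL hnorm b : Subalgebra.center ℂ (GA (Subgroup.normalizer (P : Set G)))) :
        GA (Subgroup.normalizer (P : Set G))).coeff t * (ξ : _ → ℂ) t =
      ∑ θ : IrrCharacter L, if θ ∈ orbitI hnorm b then
        (θ : L → ℂ) 1 * classInner (res hPL.le_normalizer (ξ : _ → ℂ)) (θ : L → ℂ) else 0 := by
    rw [← sum_blockCoeff_fun (orbitI hnorm b) (res hPL.le_normalizer (ξ : _ → ℂ))]
    rw [← sum_incl_res hPL.le_normalizer]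
    refine Fintype.sum_congr _ _ fun t => ?_
    rw [upOrbit_coe, coeff_up]
  have h3 : (∑ θ : IrrCharacter L, if θ ∈ orbitI hnorm b then
      (θ : L → ℂ) 1 * classInner (res hPL.le_normalizer (ξ : _ → ℂ)) (θ : L → ℂ) else 0) ≠ 0 := by
    rw [← h2]
    intro h0
    rw [h0] at h1
    simp at h1
  obtain ⟨ψ, ⟨n, hn, hψn⟩, hψ⟩ :=
    (sum_deg_ne_zero_iff (isCharacter_res hPL.le_normalizer ξ) (orbitI hnorm b)).mp h3
  refine ⟨_, hψn, ?_⟩
  have h4 : classInner (res hPL.le_normalizer (ξ : _ → ℂ)) ((conjI (hnorm hn) ψ : IrrCharacter L) : L → ℂ) =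
      classInner (res hPL.le_normalizer (ξ : _ → ℂ)) (ψ : L → ℂ) := by
    rw [classInner, classInner]
    congr 1
    rw [← Equiv.sum_comp (conjOfNormalizer (hnorm hn)).toEquiv
      (fun k : L => res hPL.le_normalizer (ξ : _ → ℂ) k * conj ((ψ : L → ℂ) k))]
    refine Fintype.sum_congr _ _ fun k => ?_
    simp only [conjI_apply]
    congr 1
    have hcl := isClassFunction_of_isIrrCharacter ξ.2
      (⟨k, hPL.le_normalizer k.2⟩ : Subgroup.normalizer (P : Set G)) ⟨n, hn⟩
    exact hcl.symm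
  rwa [h4]

/-- `g` lies in the stabilizer iff conjugation by `g` preserves the block. -/
theorem mem_stab_iff (hnorm : Subgroup.normalizer (P : Set G) ≤ Subgroup.normalizer (L : Set G))
    {b : Set (IrrCharacter L)} {T : Subgroup G}
    (hT : ∀ g : G, g ∈ T ↔ (g ∈ Subgroup.normalizer (P : Set G) ∧ ∀ θ ∈ b, ∀ θ' : IrrCharacter L,
      (∀ h h' : L, (h' : G) = g * h * g⁻¹ → (θ' : L → ℂ) h' = (θ : L → ℂ) h) → θ' ∈ b))
    {g : G} (hg : g ∈ Subgroup.normalizer (P : Set G)) :
    g ∈ T ↔ ∀ θ ∈ b, conjI (hnorm hg) θ ∈ b := by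
  constructor
  · intro hgT θ hθ
    refine ((hT g⁻¹).mp (T.inv_mem hgT)).2 θ hθ _ fun h h' he => ?_
    rw [conjI_apply]
    refine congrArg _ (Subtype.ext ?_)
    rw [coe_conjOfNormalizer, he]
    group
  · intro h
    rw [← T.inv_mem_iff, hT]
    refine ⟨Subgroup.inv_mem _ hg, fun θ hθ θ' hθ' => ?_⟩
    have e : θ' = conjI (hnorm hg) θ := by
      apply Subtype.ext
      funext k
      rw [conjI_apply]
      apply hθ'
      rw [coe_conjOfNormalizer]
      group
    rw [e]
    exact h θ hθ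

theorem le_stab (hPL : Cfsg.Agent.Lib.Blocks.Induced.IsBrauerPair p P L)
    (hnorm : Subgroup.normalizer (P : Set G) ≤ Subgroup.normalizer (L : Set G))
    {b : Set (IrrCharacter L)} {T : Subgroup G}
    (hT : ∀ g : G, g ∈ T ↔ (g ∈ Subgroup.normalizer (P : Set G) ∧ ∀ θ ∈ b, ∀ θ' : IrrCharacter L,
      (∀ h h' : L, (h' : G) = g * h * g⁻¹ → (θ' : L → ℂ) h' = (θ : L → ℂ) h) → θ' ∈ b)) : L ≤ T := by
  intro g hg
  rw [mem_stab_iff hnorm hT (hPL.le_normalizer hg)]
  intro θ hθ
  have e : conjI (hnorm (hPL.le_normalizer hg)) θ = θ := by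
    apply Subtype.ext
    funext k
    rw [conjI_apply]
    exact isClassFunction_of_isIrrCharacter θ.2 k ⟨g, hg⟩
  rwa [e]

/-- The transport of `L` into the normalizer. -/
noncomputable abbrev sig (hLΓ : L ≤ Subgroup.normalizer (P : Set G)) :
    L ≃* L.subgroupOf (Subgroup.normalizer (P : Set G)) :=
  (Subgroup.subgroupOfEquivOfLe hLΓ).symm

theorem coe_sig (hLΓ : L ≤ Subgroup.normalizer (P : Set G)) (k : L) :
    ((sig (P := P) hLΓ k : L.subgroupOf (Subgroup.normalizer (P : Set G))) : G) = k := rfl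

theorem coe_sig_symm (hLΓ : L ≤ Subgroup.normalizer (P : Set G))
    (k : L.subgroupOf (Subgroup.normalizer (P : Set G))) :
    ((sig (P := P) hLΓ).symm k : G) = k := rfl

theorem normal_subgroupOf_normalizer
    (hnorm : Subgroup.normalizer (P : Set G) ≤ Subgroup.normalizer (L : Set G)) :
    (L.subgroupOf (Subgroup.normalizer (P : Set G))).Normal := by
  constructor
  intro n hn g
  rw [Subgroup.mem_subgroupOf] at hn ⊢
  exact (Subgroup.mem_normalizer_iff.mp (hnorm g.2) _).mp hn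

theorem blockDefect_blockMap {H H' : Type*} [Group H] [Group H'] (σ : H ≃* H')
    (f : Set (IrrCharacter H)) : blockDefect p (blockMap σ f) = blockDefect p f := by
  have h1 : Nat.card H' = Nat.card H := (Nat.card_congr σ.toEquiv).symm
  have h2 : ∀ χ : IrrCharacter H, charDegree ((irrMap σ χ : IrrCharacter H') : H' → ℂ) =
      charDegree (χ : H → ℂ) := by
    intro χ
    rw [charDegree, charDegree, irrMap_apply, map_one]
  rw [blockDefect, blockDefect, h1, blockMap, Set.image_image]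
  simp only [h2]

theorem isStab_transport
    (hnorm : Subgroup.normalizer (P : Set G) ≤ Subgroup.normalizer (L : Set G))
    (hLΓ : L ≤ Subgroup.normalizer (P : Set G))
    {b : Set (IrrCharacter L)} {T : Subgroup G}
    (hT : ∀ g : G, g ∈ T ↔ (g ∈ Subgroup.normalizer (P : Set G) ∧ ∀ θ ∈ b, ∀ θ' : IrrCharacter L,
      (∀ h h' : L, (h' : G) = g * h * g⁻¹ → (θ' : L → ℂ) h' = (θ : L → ℂ) h) → θ' ∈ b)) :
    IsStab (normal_subgroupOf_normalizer hnorm) (blockMap (sig hLΓ) b)
      (T.subgroupOf (Subgroup.normalizer (P : Set G))) := by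
  intro g
  rw [Subgroup.mem_subgroupOf, mem_stab_iff hnorm hT g.2]
  have key : ∀ θ : IrrCharacter L, conjIrr (normal_subgroupOf_normalizer hnorm) g (irrMap (sig hLΓ) θ) =
      irrMap (sig hLΓ) (conjI (hnorm g.2) θ) := by
    intro θ
    apply Subtype.ext
    funext k
    rfl
  constructor
  · rintro h _ ⟨θ, hθ, rfl⟩
    rw [key]
    exact irrMap_mem_blockMap _ _ (h θ hθ)
  · intro h θ hθ
    have h1 := h _ (irrMap_mem_blockMap (sig hLΓ) b hθ)
    rw [key] at h1
    obtain ⟨θ₁, hθ₁, he⟩ := h1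
    rwa [← (irrEquiv (sig hLΓ)).injective he]

/-- The transported inner product. -/
theorem classInner_transport (hLΓ : L ≤ Subgroup.normalizer (P : Set G))
    [Fintype (L.subgroupOf (Subgroup.normalizer (P : Set G)))]
    (ξ : Subgroup.normalizer (P : Set G) → ℂ) (θ : IrrCharacter L) :
    classInner (fun k : L.subgroupOf (Subgroup.normalizer (P : Set G)) => ξ k)
      ((irrMap (sig hLΓ) θ : IrrCharacter _) : _ → ℂ) = classInner (res hLΓ ξ) (θ : L → ℂ) := by
  rw [classInner, classInner, Nat.card_congr (sig (P := P) hLΓ).toEquiv.symm]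
  congr 1
  refine (Equiv.sum_comp (sig (P := P) hLΓ).toEquiv _).symm.trans ?_
  refine Fintype.sum_congr _ _ fun k => ?_
  simp only [irrMap_apply, MulEquiv.toEquiv_eq_coe, EquivLike.coe_coe, MulEquiv.symm_apply_apply]
  rfl

set_option maxHeartbeats 1600000 in
/-- **The criterion.** -/
theorem crit (hM : IsPModular p M) (hPL : Cfsg.Agent.Lib.Blocks.Induced.IsBrauerPair p P L)
    (hnorm : Subgroup.normalizer (P : Set G) ≤ Subgroup.normalizer (L : Set G))
    {b : Set (IrrCharacter L)} (hb : IsPBlock M b) (hbP : IsDefectGroup p M b (P.subgroupOf L))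
    {B : Set (IrrCharacter G)} (hind : IsInducedBlock M L b B) {T : Subgroup G}
    (hT : ∀ g : G, g ∈ T ↔ (g ∈ Subgroup.normalizer (P : Set G) ∧ ∀ θ ∈ b, ∀ θ' : IrrCharacter L,
      (∀ h h' : L, (h' : G) = g * h * g⁻¹ → (θ' : L → ℂ) h' = (θ : L → ℂ) h) → θ' ∈ b)) :
    IsDefectGroup p M B P ↔ ¬ p ∣ L.relIndex T := by
  classical
  have hPT := isBrauerPair_normalizer (p := p) hPL.isP
  have hLΓ : L ≤ Subgroup.normalizer (P : Set G) := hPL.le_normalizer
  have hTΓ : T ≤ Subgroup.normalizer (P : Set G) := fun g hg => ((hT g).mp hg).1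
  have hLT : L ≤ T := le_stab hPL hnorm hT
  letI : Fintype (L.subgroupOf (Subgroup.normalizer (P : Set G))) := Fintype.ofFinite _
  haveI := finite_irrCharacter (G := L.subgroupOf (Subgroup.normalizer (P : Set G)))
  letI := Fintype.ofFinite (IrrCharacter (L.subgroupOf (Subgroup.normalizer (P : Set G))))
  letI : Fintype (T.subgroupOf (Subgroup.normalizer (P : Set G))) := Fintype.ofFinite _
  haveI := finite_irrCharacter (G := T.subgroupOf (Subgroup.normalizer (P : Set G)))
  letI := Fintype.ofFinite (IrrCharacter (T.subgroupOf (Subgroup.normalizer (P : Set G))))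
  letI : Fintype (Subgroup.normalizer (P : Set G) ⧸ T.subgroupOf (Subgroup.normalizer (P : Set G))) :=
    Fintype.ofFinite _
  obtain ⟨ξt, hξ, hindt⟩ := exists_irr_normalizer hM hPL hnorm hind
  obtain ⟨θ₀, hθ₀, hne⟩ := exists_mem_of_omega_upOrbit hPL hnorm b ξt hξ
  have hQN : P.subgroupOf (Subgroup.normalizer (P : Set G)) ≤
      L.subgroupOf (Subgroup.normalizer (P : Set G)) := Subgroup.subgroupOf_mono _ hPL.le
  have hCN : Subgroup.centralizer
      (P.subgroupOf (Subgroup.normalizer (P : Set G)) : Set (Subgroup.normalizer (P : Set G))) ≤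
      L.subgroupOf (Subgroup.normalizer (P : Set G)) := by
    intro x hx
    rw [Subgroup.mem_subgroupOf]
    apply hPL.centralizer_le
    rw [Subgroup.mem_centralizer_iff] at hx ⊢
    intro q hq
    have h1 := hx ⟨q, le_normalizer_self P hq⟩ (Subgroup.mem_subgroupOf.mpr hq)
    exact congrArg (fun x : Subgroup.normalizer (P : Set G) => (x : G)) h1
  have key := blockDefect_covering (G := Subgroup.normalizer (P : Set G)) hM
    (isPBlock_blockMap (sig hLΓ) hb) (Subgroup.subgroupOf_mono _ hLT) (isStab_transport hnorm hLΓ hT)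
    hPT.normal hPT.isP' hQN hCN (B₁ := blockOf M (ξt : _ → ℂ)) ⟨ξt, rfl⟩
    ⟨ξt, mem_blockOf_self ξt, irrMap (sig hLΓ) θ₀, irrMap_mem_blockMap _ _ hθ₀, by
      rw [classInner_transport hLΓ]
      exact hne⟩
  rw [blockDefect_blockMap, Subgroup.relIndex_subgroupOf hTΓ] at key
  have hcb : Nat.card P = p ^ blockDefect p b := by
    rw [← card_eq_pow_blockDefect hM hb hbP, card_subgroupOf_of_le hPL.le]
  have hr : L.relIndex T ≠ 0 := by
    rw [Subgroup.relIndex]
    exact Subgroup.index_ne_zero_of_finite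
  constructor
  · intro hD hdvd
    obtain ⟨D₁, hD₁⟩ := exists_isDefectGroup (p := p) hindt.1
    have h1 := defect_eq_subgroupOf hM hPT.normal hPT.le hindt hD hD₁
    have h2 := card_eq_pow_blockDefect hM hindt.1 hD₁
    rw [h1, card_subgroupOf_of_le hPT.le, hcb] at h2
    have h3 := Nat.pow_right_injective hp.out.two_le h2
    have h4 := hp.out.factorization_pos_of_dvd hr hdvd
    omega
  · intro hnd
    rw [Nat.factorization_eq_zero_of_not_dvd hnd, add_zero] at key
    obtain ⟨D₁, hD₁⟩ := exists_isDefectGroup (p := p) hindt.1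
    have h1 := normal_le_defect hM hindt.1 hD₁ hPT.normal hPT.isP'
    have h2 := card_eq_pow_blockDefect hM hindt.1 hD₁
    have h3 : P.subgroupOf (Subgroup.normalizer (P : Set G)) = D₁ := by
      apply Subgroup.eq_of_le_of_card_ge h1
      rw [h2, key, ← hcb, card_subgroupOf_of_le hPT.le]
    rw [← h3] at hD₁
    obtain ⟨B₂, -, hB₂, hi₂⟩ := first_main_exists hM hPL.isP hindt.1 hD₁
    rwa [IsInducedBlock.unique _ hindt hi₂]

end Wrapper

end Cfsg.Agent.Lib.Blocks.ExtCrit
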