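import Mathlib
import Cfsg.Agent.Lib.Blocks.General
import Cfsg.Agent.Lib.BlockP.Stable

/-!
# The principal block idempotent on the centralizer of a Sylow subgroup

`C = C_G(P)` has a normal `p`-complement `K`, and the coefficient of the principal block idempotent
at an element of `K` is `1/|K|` modulo the local ideal.
-/

set_option linter.unusedSectionVars false
set_option autoImplicit false
set_option linter.style.haveILetI false

namespace Cfsg.Agent.Lib.Blocks.PrincSylow

open Cfsg MonoidAlgebra
open Cfsg.Agent.Lib.Blocks.Local Cfsg.Agent.Lib.Blocks.Central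
open Cfsg.Agent.Lib.Blocks.Weak Cfsg.Agent.Lib.Blocks.Brauer Cfsg.Agent.Lib.Blocks.Induced
open Cfsg.Agent.Lib.Blocks.PPart Cfsg.Agent.Lib.Blocks.Third Cfsg.Agent.Lib.Blocks.General
open scoped ComplexConjugate

universe u

section Complement

variable {C : Type u} [Group C] [Finite C] {p : ℕ} [hp : Fact p.Prime]

/-- A group with a central Sylow subgroup has a normal `p`-complement, consisting of its regular
elements. -/
theorem exists_regular_subgroup (S : Sylow p C) (hS : ∀ s ∈ S, ∀ k : C, s * k = k * s) :
    ∃ K : Subgroup C, K.Normal ∧ ¬ p ∣ Nat.card K ∧ ∀ y : C, y ∈ K ↔ ¬ p ∣ orderOf y := by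
  classical
  have hn : Subgroup.normalizer ((S : Subgroup C) : Set C) ≤ Subgroup.centralizer ((S : Subgroup C) : Set C) := by
    intro x _
    rw [Subgroup.mem_centralizer_iff]
    intro s hs
    exact hS s hs x
  refine ⟨(MonoidHom.transferSylow S hn).ker, inferInstance, ?_, ?_⟩
  · have h := MonoidHom.ker_transferSylow_isComplement' S hn
    rw [← h.index_eq_card]
    exact S.not_dvd_index
  · have h := MonoidHom.ker_transferSylow_isComplement' S hn
    have hK : ¬ p ∣ Nat.card (MonoidHom.transferSylow S hn).ker := by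
      rw [← h.index_eq_card]
      exact S.not_dvd_index
    intro y
    constructor
    · intro hy hd
      exact hK (hd.trans (Subgroup.orderOf_dvd_natCard _ hy))
    · intro hy
      rw [MonoidHom.mem_ker]
      set z := MonoidHom.transferSylow S hn y with hz
      have h1 : orderOf z ∣ orderOf y := orderOf_map_dvd _ y
      obtain ⟨k, hk⟩ := S.isPGroup' z
      have h2 : orderOf z ∣ p ^ k := orderOf_dvd_of_pow_eq_one hk
      obtain ⟨j, -, hj⟩ := (Nat.dvd_prime_pow hp.out).mp h2
      by_cases hj0 : j = 0
      · rw [hj0, pow_zero] at hj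
        exact orderOf_eq_one_iff.mp hj
      · exfalso
        apply hy
        rw [hj] at h1
        exact (dvd_pow_self p hj0).trans h1

end Complement

section Cent

variable {G : Type u} [Group G] [Fintype G] {M : Ideal AlgInt} {p : ℕ} [hp : Fact p.Prime]

/-- The `p`-elements of `C_G(P)` are central there. -/
theorem sylow_central (P : Sylow p G) (S : Sylow p (Subgroup.centralizer ((P : Subgroup G) : Set G))) :
    ∀ s ∈ S, ∀ k : Subgroup.centralizer ((P : Subgroup G) : Set G), s * k = k * s := by
  intro s hs k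
  have h1 : ∃ j : ℕ, orderOf (s : G) = p ^ j := by
    rw [Subgroup.orderOf_coe]
    exact orderOf_of_mem_isPGroup S.isPGroup' hs
  have h2 : (s : G) ∈ P := by
    apply mem_sylow_of_mem_normalizer P h1
    rw [Subgroup.mem_normalizer_iff]
    intro n
    have hsc : ∀ q ∈ ((P : Subgroup G) : Set G), q * (s : G) = (s : G) * q :=
      Subgroup.mem_centralizer_iff.mp s.2
    constructor
    · intro hn
      have := hsc n hn
      have e : (s : G) * n * (s : G)⁻¹ = n := by rw [← this, mul_assoc, mul_inv_cancel, mul_one]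
      rw [e]
      exact hn
    · intro hn
      have hn2 : n ∈ (P : Subgroup G) := by
        have h3 := hsc _ hn
        have e : n = (s : G) * n * (s : G)⁻¹ := by
          have h4 : (s : G) * n * (s : G)⁻¹ * (s : G) = (s : G) * ((s : G) * n * (s : G)⁻¹) := h3
          have h5 : (s : G) * n * (s : G)⁻¹ * (s : G) = (s : G) * n := by group
          rw [h5] at h4
          exact mul_left_cancel h4
        rw [e]
        exact hn
      exact hn2
  have hkc : ∀ q ∈ ((P : Subgroup G) : Set G), q * (k : G) = (k : G) * q :=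
    Subgroup.mem_centralizer_iff.mp k.2
  exact Subtype.ext (hkc _ h2)

variable [hMp : M.IsPrime] (hM : IsPModular p M)
include hM

/-- Restriction to `C_G(Q)` of central elements is multiplicative modulo `J`. -/
theorem restr_mul_sub_mem {Q : Subgroup G} (hQ : IsPGroup p Q) {C : Subgroup G} [Fintype C]
    (hC : C = Subgroup.centralizer (Q : Set G))
    {z w : Subalgebra.center ℂ (GA G)} (hz : z ∈ localCenter M G) (hw : w ∈ localCenter M G) :
    Jc M ((restrCenter C (z * w) : GA C) - (restrCenter C z : GA C) * (restrCenter C w : GA C)) := by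
  classical
  subst hC
  intro c
  have h1 := res_mul_sub_mem hM hQ (QInv.of_central (isCentral_of_mem z))
    (QInv.of_central (isCentral_of_mem w)) (Rc.of_localCenter hz) (Rc.of_localCenter hw) (c : G)
  have e : ∀ x : GA G, res ((Subgroup.centralizer (Q : Set G) : Subgroup G) : Set G) x =
      incl (Subgroup.centralizer (Q : Set G)) (restr (Subgroup.centralizer (Q : Set G)) x) := by
    intro x
    ext g
    by_cases hg : g ∈ Subgroup.centralizer (Q : Set G)
    · rw [coeff_res_of_mem x hg, coeff_incl_of_mem _ _ hg, coeff_restr]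
    · rw [coeff_res_of_notMem x hg, coeff_incl_of_notMem _ _ hg]
  rw [e, e, e, ← incl_mul, coeff_sub', coeff_incl_coe, coeff_incl_coe] at h1
  rw [coeff_sub']
  simpa using h1

/-- Powers under the restriction. -/
theorem restr_pow_sub_mem {Q : Subgroup G} (hQ : IsPGroup p Q) {C : Subgroup G} [Fintype C]
    (hC : C = Subgroup.centralizer (Q : Set G))
    {z : Subalgebra.center ℂ (GA G)} (hz : z ∈ localCenter M G) (n : ℕ) (hn : n ≠ 0) :
    Jc M ((restrCenter C (z ^ n) : GA C) - (restrCenter C z : GA C) ^ n) := by
  induction n with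
  | zero => exact absurd rfl hn
  | succ n ih =>
    by_cases h0 : n = 0
    · subst h0
      simp only [zero_add, pow_one, sub_self]
      exact Jc.zero
    · have h1 := ih h0
      have h2 := restr_mul_sub_mem hM hQ hC (Subring.pow_mem _ hz n) hz
      rw [pow_succ, pow_succ]
      have e : (restrCenter C (z ^ n * z) : GA C) - (restrCenter C z : GA C) ^ n * (restrCenter C z : GA C) =
          ((restrCenter C (z ^ n * z) : GA C) - (restrCenter C (z ^ n) : GA C) * (restrCenter C z : GA C)) +
          ((restrCenter C (z ^ n) : GA C) - (restrCenter C z : GA C) ^ n) * (restrCenter C z : GA C) := by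
        noncomm_ring
      rw [e]
      refine Jc.add h2 (Jc.mul_Rc h1 ?_)
      exact Rc.of_localCenter (restrCenter_mem_localCenter C hz)

/-- `P`-orbits on a subgroup containing `P`. -/
theorem sum_sub_sum_cent {Q : Subgroup G} (hQ : IsPGroup p Q) {z : Subalgebra.center ℂ (GA G)}
    (hz : z ∈ localCenter M G) {H : Subgroup G} (hH : Q ≤ H) [DecidablePred (· ∈ H)]
    [DecidablePred (· ∈ Subgroup.centralizer (Q : Set G))] :
    MemLocalIdeal M ((∑ g : G, if g ∈ H then (z : GA G).coeff g else 0) -
      ∑ g : G, if g ∈ Subgroup.centralizer (Q : Set G) then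
        (if g ∈ H then (z : GA G).coeff g else 0) else 0) := by
  classical
  letI := conjAct Q
  have hfix : ∀ g : G, g ∈ (Finset.univ.filter (· ∈ Subgroup.centralizer (Q : Set G))) ↔ ∀ q : Q, q • g = g := by
    intro g
    simp only [Finset.mem_filter, Finset.mem_univ, true_and]
    rw [Subgroup.mem_centralizer_iff]
    constructor
    · intro h q
      change (q : G) * g * (q : G)⁻¹ = g
      rw [h q q.2]
      group
    · intro h q hq
      have : (q : G) * g * (q : G)⁻¹ = g := h ⟨q, hq⟩
      exact mul_inv_eq_iff_eq_mul.mp this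
  have key := sum_sub_sum_fixed_mem hM hQ
    (fun g : G => if g ∈ H then (z : GA G).coeff g else 0)
    (by
      intro q g
      have h1 : q • g = (q : G) * g * (q : G)⁻¹ := rfl
      have h2 : (q : G) * g * (q : G)⁻¹ ∈ H ↔ g ∈ H := by
        have hq : (q : G) ∈ H := hH q.2
        constructor
        · intro h
          have := H.mul_mem (H.mul_mem (H.inv_mem hq) h) hq
          simpa [mul_assoc] using this
        · intro h
          exact H.mul_mem (H.mul_mem hq h) (H.inv_mem hq)
      simp only [h1, h2]
      rw [isCentral_of_mem z g (q : G)])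
    (fun g => by
      split_ifs
      · exact Rc.of_localCenter hz g
      · exact memLocalRing_zero)
    (Finset.univ.filter (· ∈ Subgroup.centralizer (Q : Set G))) hfix
  rw [Finset.sum_filter] at key
  exact key

omit hM in
theorem avg_mul_self {C : Type u} [Group C] [Fintype C] (K : Subgroup C) (hK : K.Normal) :
    (avgNormal K hK : GA C) * (avgNormal K hK : GA C) = (avgNormal K hK : GA C) := by
  classical
  letI : Fintype K := Fintype.ofFinite K
  have hcard : (Nat.card K : ℂ) ≠ 0 := Nat.cast_ne_zero.mpr Nat.card_pos.ne'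
  ext g
  rw [coeff_mul_sum]
  simp only [coeff_avgNormal]
  rw [sum_eq_sum_subgroup K _ (fun h hh => by rw [if_neg hh, zero_mul])]
  have h1 : ∀ k : K, (if (k : C) ∈ K then (Nat.card K : ℂ)⁻¹ else 0) *
      (if (k : C)⁻¹ * g ∈ K then (Nat.card K : ℂ)⁻¹ else 0) =
      (if g ∈ K then (Nat.card K : ℂ)⁻¹ * (Nat.card K : ℂ)⁻¹ else 0) := by
    intro k
    have h2 : (k : C)⁻¹ * g ∈ K ↔ g ∈ K := by
      rw [Subgroup.mul_mem_cancel_left]
      exact K.inv_mem k.2
    rw [if_pos k.2]
    simp only [h2]
    split_ifs <;> simp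
  rw [Finset.sum_congr rfl (fun k _ => h1 k), Finset.sum_const, Finset.card_univ,
    ← Nat.card_eq_fintype_card, nsmul_eq_mul]
  split_ifs
  · field_simp
  · simp

omit hM in
/-- The coefficient at `y ∈ K` of the product of a central element with the average over `K`. -/
theorem coeff_mul_avg {C : Type u} [Group C] [Fintype C] (K : Subgroup C) (hK : K.Normal) (a : GA C)
    {y : C} (hy : y ∈ K) :
    (a * (avgNormal K hK : GA C)).coeff y =
      (Nat.card K : ℂ)⁻¹ * ∑ k : C, open Classical in if k ∈ K then a.coeff k else 0 := by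
  classical
  rw [coeff_mul_sum, Finset.mul_sum]
  refine Finset.sum_congr rfl fun k _ => ?_
  rw [coeff_avgNormal]
  have h2 : k⁻¹ * y ∈ K ↔ k ∈ K := by
    constructor
    · intro h
      have := K.mul_mem hy (K.inv_mem h)
      simpa using this
    · intro h
      exact K.mul_mem (K.inv_mem h) hy
  simp only [h2]
  split_ifs <;> ring

/-- **The principal block idempotent on the `p`-complement of `C_G(P)`.** -/
theorem coeff_principal_sub_mem (Q : Subgroup G) (hQ : IsPGroup p Q)
    {C : Subgroup G} [Fintype C] (hC : C = Subgroup.centralizer (Q : Set G))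
    {K : Subgroup C} (hKn : K.Normal) (hKp : ¬ p ∣ Nat.card K)
    (hKr : ∀ y : C, y ∈ K ↔ ¬ p ∣ orderOf y) {y : C} (hy : y ∈ K) :
    MemLocalIdeal M (blockCoeff (principalBlock M G) (y : G) -
      (Nat.card K : ℂ)⁻¹ * ∑ k : C, open Classical in if k ∈ K then blockCoeff (principalBlock M G) (k : G) else 0) := by
  classical
  haveI := Cfsg.Agent.Lib.Char.Ortho.finite_irrCharacter (G := G)
  letI := Fintype.ofFinite (IrrCharacter G)
  set A := principalBlock M G with hA
  have hAb : IsPBlock M A := isPBlock_principal M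
  set e := idem A with he
  have hel : e ∈ localCenter M G := idem_mem_localCenter hAb
  set σ := regSum p G with hσ
  have hσl : σ ∈ localCenter M G := regSum_mem_localCenter
  set c : ℂ := regCount p G with hc
  have hcn : ¬ MemLocalIdeal M c := regCount_notMem hM
  have hcl : MemLocalRing M c := by
    rw [hc, regCount]
    refine memLocalRing_sum _ _ fun g _ => ?_
    exact Rc.of_localCenter hσl g
  set Z : Subalgebra.center ℂ (GA G) := σ - c • e with hZ
  have hZl : Z ∈ localCenter M G := by
    intro g
    rw [hZ]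
    change MemLocalRing M ((σ : GA G).coeff g - (c • (e : GA G)).coeff g)
    rw [coeff_smul']
    exact memLocalRing_sub (Rc.of_localCenter hσl g) (memLocalRing_mul hcl (Rc.of_localCenter hel g))
  have hZω : ∀ χ : IrrCharacter G, MemLocalIdeal M (omegaHom χ Z) := by
    intro χ
    rw [hZ, map_sub, map_smul, he, omegaHom_idem, smul_eq_mul]
    by_cases hχ : χ ∈ A
    · rw [if_pos hχ, mul_one]
      have h1 := omegaHom_sub_mem_of_sameBlock (M := M) (χ := oneI G) (ψ := χ) hχ hσl
      rw [omegaHom_one_regSum] at h1
      have := memLocalIdeal_neg h1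
      simpa using this
    · rw [if_neg hχ, mul_zero, sub_zero, hσ, omegaHom_regSum_of_notMem hM hχ]
      exact memLocalIdeal_zero
  obtain ⟨n, hn⟩ := exists_pow_Jc hZl hZω
  -- in `GA C`
  have hN1 : Jc M ((restrCenter C (Z ^ (n + 1)) : GA C)) := by
    apply Jc.restr C
    have : ((Z ^ (n + 1) : Subalgebra.center ℂ (GA G)) : GA G) = (Z : GA G) ^ n * (Z : GA G) := by
      rw [pow_succ]
      rfl
    rw [this]
    exact Jc.mul_Rc hn (Rc.of_localCenter hZl)
  have hN2 := restr_pow_sub_mem hM hQ hC hZl (n + 1) (Nat.succ_ne_zero n)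
  have hN3 : Jc M ((restrCenter C Z : GA C) ^ (n + 1)) := by
    have := Jc.sub hN1 hN2
    simpa using this
  set ε := avgNormal K hKn with hε
  have hεε : (ε : GA C) * (ε : GA C) = (ε : GA C) := avg_mul_self K hKn
  have hεl : Rc M (ε : GA C) := by
    intro g
    rw [hε, coeff_avgNormal]
    split_ifs
    · exact memLocalRing_natCast_inv hM hKp
    · exact memLocalRing_zero
  set a : Subalgebra.center ℂ (GA C) := restrCenter C e with ha
  have hal : Rc M (a : GA C) := Rc.of_localCenter (restrCenter_mem_localCenter C hel)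
  set E : GA C := (ε : GA C) with hE
  set A' : GA C := (a : GA C) with hA'
  set X : GA C := (restrCenter C Z : GA C) with hX
  have hAE : Commute A' E := Subalgebra.mem_center_iff.mp a.2 E |>.symm
  have hσC : restrCenter C σ = (Nat.card K : ℂ) • ε := by
    rw [hσ, restrCenter_regSum]
    apply Subtype.ext
    ext g
    change ((regSum p C : Subalgebra.center ℂ (GA C)) : GA C).coeff g = ((Nat.card K : ℂ) • (ε : GA C)).coeff g
    rw [coeff_regSum, coeff_smul', hε, coeff_avgNormal]
    have hcard : (Nat.card K : ℂ) ≠ 0 := Nat.cast_ne_zero.mpr Nat.card_pos.ne'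
    by_cases hg : g ∈ K
    · rw [if_pos hg, if_pos ((hKr g).mp hg)]
      field_simp
    · have := (not_congr (hKr g)).mp hg
      rw [if_neg hg, if_neg this, mul_zero]
  have hZC : X = (Nat.card K : ℂ) • E - c • A' := by
    have h1 : restrCenter C Z = (Nat.card K : ℂ) • ε - c • a := by
      rw [hZ, map_sub, map_smul, hσC]
    rw [hX, h1]
    rfl
  set E' : GA C := 1 - E with hE'
  have hE'l : Rc M E' := Rc.sub Rc.one hεl
  set V : GA C := A' * E' with hV
  have hEE' : E * E' = 0 := by
    rw [hE', mul_sub, mul_one, hεε, sub_self]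
  have hE'E' : E' * E' = E' := by
    rw [hE', sub_mul, one_mul, mul_sub, mul_one, hεε, sub_self, sub_zero]
  have hAE' : Commute A' E' := (Commute.one_right _).sub_right hAE
  have hZv : X * E' = (-c) • V := by
    rw [hZC, sub_mul, smul_mul_assoc, smul_mul_assoc, hEE', smul_zero, zero_sub, neg_smul]
  have hXE' : Commute X E' := by
    rw [hZC]
    refine Commute.sub_left (Commute.smul_left ?_ _) (Commute.smul_left hAE' _)
    exact (Commute.one_right _).sub_right (Commute.refl _)
  have hvpow : Jc M (V ^ (n + 1)) := by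
    have h1 : Jc M (X ^ (n + 1) * E' ^ (n + 1)) := Jc.mul_Rc hN3 (Rc.pow hE'l _)
    rw [← hXE'.mul_pow, hZv, smul_pow] at h1
    have hcne : c ≠ 0 := by
      intro h0
      apply hcn
      rw [h0]
      exact memLocalIdeal_zero
    have h4 : ((((-c) ^ (n + 1))⁻¹ : ℂ) • ((-c) ^ (n + 1) • V ^ (n + 1))) = V ^ (n + 1) := by
      rw [smul_smul, inv_mul_cancel₀ (pow_ne_zero _ (neg_ne_zero.mpr hcne)), one_smul]
    rw [← h4]
    refine Jc.smul ?_ h1
    rw [← inv_pow]
    refine memLocalRing_pow ?_ _
    rw [inv_neg]
    exact memLocalRing_neg (memLocalRing_inv_of_notMem hcl hcn)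
  have hvl : Rc M V := Rc.mul hal hE'l
  have haa : Jc M (A' * A' - A') := by
    have h1 := restr_mul_sub_mem hM hQ hC hel hel
    have h2 : e * e = e := by
      rw [he]
      apply omegaHom_injective
      intro ψ
      rw [map_mul, omegaHom_idem]
      split_ifs <;> simp
    rw [h2] at h1
    have := Jc.neg h1
    rw [neg_sub] at this
    exact this
  have hvv : Jc M (V * V - V) := by
    have e1 : V * V - V = (A' * A' - A') * E' := by
      calc V * V - V = A' * (E' * A') * E' - V := by rw [hV]; noncomm_ring
        _ = A' * (A' * E') * E' - V := by rw [hAE'.eq]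
        _ = A' * A' * (E' * E') - V := by noncomm_ring
        _ = (A' * A' - A') * E' := by rw [hE'E', hV]; noncomm_ring
    rw [e1]
    exact Jc.mul_Rc haa hE'l
  have hvn : ∀ m : ℕ, Jc M (V ^ (m + 1) - V) := by
    intro m
    induction m with
    | zero => simpa using Jc.zero
    | succ m ih =>
      have e2 : V ^ (m + 1 + 1) - V = (V ^ (m + 1) - V) * V + (V * V - V) := by
        rw [pow_succ _ (m + 1)]
        noncomm_ring
      rw [e2]
      exact Jc.add (Jc.mul_Rc ih hvl) hvv
  have hv0 : Jc M V := by
    have := Jc.sub hvpow (hvn n)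
    simpa using this
  have hfin := hv0 y
  have e3 : V = A' - A' * E := by
    rw [hV, hE', mul_sub, mul_one]
  rw [e3, coeff_sub', coeff_mul_avg K hKn _ hy] at hfin
  have e4 : ∀ k : C, A'.coeff k = blockCoeff A (k : G) := by
    intro k
    rw [hA', ha, he, coe_restrCenter, coeff_restr, coeff_idem]
  simp only [e4] at hfin
  exact hfin

/-- **The sum of the principal block idempotent over a subgroup containing a Sylow subgroup is a
unit.** -/
theorem sum_principal_notMem (Q : Subgroup G) (P : Sylow p G) (hQP : Q = (P : Subgroup G)) {H : Subgroup G} (hH : Q ≤ H)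
    [DecidablePred (· ∈ H)] :
    ¬ MemLocalIdeal M (∑ g : G, if g ∈ H then blockCoeff (principalBlock M G) g else 0) := by
  classical
  subst hQP
  have hQ : IsPGroup p (P : Subgroup G) := P.isPGroup'
  set Q : Subgroup G := (P : Subgroup G) with hQdef
  letI : Fintype (Subgroup.centralizer (Q : Set G)) := Fintype.ofFinite _
  set C := Subgroup.centralizer (Q : Set G) with hC
  set A := principalBlock M G with hA
  have hAb : IsPBlock M A := isPBlock_principal M
  obtain ⟨S⟩ : Nonempty (Sylow p C) := inferInstance
  obtain ⟨K, hKn, hKp, hKr⟩ := exists_regular_subgroup S (sylow_central P S)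
  haveI := Cfsg.Agent.Lib.Char.Ortho.finite_irrCharacter (G := G)
  letI := Fintype.ofFinite (IrrCharacter G)
  have hel : idem A ∈ localCenter M G := idem_mem_localCenter hAb
  -- the sum over `K` in terms of a sum over `G`
  set s : ℂ := ∑ k : C, if k ∈ K then blockCoeff A (k : G) else 0 with hs
  have hreg : ∀ g : G, ¬ (¬ p ∣ orderOf g) → blockCoeff A g = 0 := by
    intro g hg
    exact Cfsg.Agent.Lib.BlockP.Stable.blockCoeff_eq_zero hM hAb (not_not.mp hg)
  have hsum : ∀ (H : Subgroup G) [DecidablePred (· ∈ H)], (∑ g : G, if g ∈ C then (if g ∈ H then ((idem A : Subalgebra.center ℂ (GA G)) : GA G).coeff g else 0) else 0) =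
      ∑ k : C, if k ∈ K then (if (k : G) ∈ H then blockCoeff A (k : G) else 0) else 0 := by
    intro H _
    rw [sum_eq_sum_subgroup C _ (fun g hg => if_neg hg)]
    refine Finset.sum_congr rfl fun k _ => ?_
    rw [if_pos k.2, coeff_idem]
    by_cases hk : k ∈ K
    · rw [if_pos hk]
    · rw [if_neg hk]
      have hk' : ¬ (¬ p ∣ orderOf (k : G)) := by
        rw [Subgroup.orderOf_coe]
        exact fun h => hk ((hKr k).mpr h)
      rw [hreg _ hk']
      simp
  have hs1 : MemLocalIdeal M (s - 1) := by
    have h1 := sum_sub_sum_cent hM hQ hel (H := ⊤) le_top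
    rw [hsum ⊤] at h1
    simp only [Subgroup.mem_top, if_true] at h1
    have h2 : ∑ g : G, ((idem A : Subalgebra.center ℂ (GA G)) : GA G).coeff g = 1 := by
      have h3 := omegaHom_idem A (oneI G)
      rw [if_pos (show oneI G ∈ A from mem_blockOf_self (oneI G)), omegaHom_apply, lin_apply] at h3
      simpa using h3
    rw [h2] at h1
    have := memLocalIdeal_neg h1
    rw [neg_sub] at this
    exact this
  have hcardK : ((Nat.card K : ℕ) : ℂ) ≠ 0 := Nat.cast_ne_zero.mpr Nat.card_pos.ne'
  have hKinv : MemLocalRing M (Nat.card K : ℂ)⁻¹ := memLocalRing_natCast_inv hM hKp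
  have hval : ∀ k ∈ K, MemLocalIdeal M (blockCoeff A ((k : C) : G) - (Nat.card K : ℂ)⁻¹) := by
    intro k hk
    have h1 := coeff_principal_sub_mem hM Q hQ hC hKn hKp hKr hk
    have h2 := memLocalIdeal_mul_left hKinv hs1
    have h3 := memLocalIdeal_add h1 h2
    have e : blockCoeff A ((k : C) : G) - (Nat.card K : ℂ)⁻¹ = blockCoeff A ((k : C) : G) - (Nat.card K : ℂ)⁻¹ * s + (Nat.card K : ℂ)⁻¹ * (s - 1) := by ring
    rw [e]
    exact h3
  intro hmem
  have h1 := sum_sub_sum_cent hM hQ hel (H := H) hH
  rw [hsum H] at h1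
  simp only [coeff_idem] at h1
  have h2 := memLocalIdeal_neg (memLocalIdeal_sub h1 hmem)
  -- compare with the number of elements
  set L : Finset C := Finset.univ.filter (fun k => k ∈ K ∧ (k : G) ∈ H) with hL
  have h3 : MemLocalIdeal M ((∑ k : C, if k ∈ K then (if (k : G) ∈ H then blockCoeff A (k : G) else 0) else 0) -
      (L.card : ℂ) * (Nat.card K : ℂ)⁻¹) := by
    have e : (L.card : ℂ) * (Nat.card K : ℂ)⁻¹ = ∑ k : C, if k ∈ K then (if (k : G) ∈ H then (Nat.card K : ℂ)⁻¹ else 0) else 0 := by
      rw [Finset.card_eq_sum_ones, Nat.cast_sum, Finset.sum_mul, hL, Finset.sum_filter]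
      refine Finset.sum_congr rfl fun k _ => ?_
      by_cases hk : k ∈ K
      · by_cases hk2 : (k : G) ∈ H
        · simp [hk, hk2]
        · simp [hk, hk2]
      · simp [hk]
    rw [e, ← Finset.sum_sub_distrib]
    refine memLocalIdeal_sum _ _ fun k _ => ?_
    by_cases hk : k ∈ K
    · by_cases hk2 : (k : G) ∈ H
      · simp only [hk, hk2, if_true]
        exact hval k hk
      · simp only [hk, hk2, if_true, if_false, sub_self]
        exact memLocalIdeal_zero
    · simp only [hk, if_false, sub_self]
      exact memLocalIdeal_zero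
  have h4 : MemLocalIdeal M ((L.card : ℂ) * (Nat.card K : ℂ)⁻¹) := by
    have h5 := memLocalIdeal_sub (memLocalIdeal_sub hmem h1) h3
    convert h5 using 1
    ring
  have h5 : MemLocalIdeal M (L.card : ℂ) := by
    have h6 := memLocalIdeal_mul_right h4 (memLocalRing_natCast (M := M) (Nat.card K))
    rwa [mul_assoc, inv_mul_cancel₀ hcardK, mul_one] at h6
  have h6 : p ∣ L.card := (natCast_memLocalIdeal_iff hM _).mp h5
  apply hKp
  refine h6.trans ?_
  have h7 : L.card = Nat.card (K ⊓ H.comap C.subtype : Subgroup C) := by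
    rw [Nat.card_eq_fintype_card, Fintype.card_subtype]
    congr 1
    rw [hL]
    ext x
    simp only [Subgroup.mem_inf, Subgroup.mem_comap, Finset.mem_filter, Finset.mem_univ, true_and]
    rfl
  rw [h7]
  exact Subgroup.card_dvd_of_le inf_le_left

end Cent

end Cfsg.Agent.Lib.Blocks.PrincSylow
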