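import Mathlib
import Cfsg.Agent.Lib.Blocks.PrincSylow
import Cfsg.Agent.Lib.Blocks.PIndex
import Cfsg.Agent.Lib.BlockH.Transport

/-!
# Extendible `p'`-degree characters of the principal block lie under `p'`-degree members
-/

set_option linter.unusedSectionVars false
set_option autoImplicit false
set_option linter.style.haveILetI false

namespace Cfsg.Agent.Lib.Blocks.PrincOver

open Cfsg MonoidAlgebra
open Cfsg.Agent.Lib.Blocks.Local Cfsg.Agent.Lib.Blocks.Central
open Cfsg.Agent.Lib.Blocks.Weak Cfsg.Agent.Lib.Blocks.Brauer Cfsg.Agent.Lib.Blocks.Induced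
open Cfsg.Agent.Lib.Blocks.PPart Cfsg.Agent.Lib.Blocks.Third Cfsg.Agent.Lib.Blocks.General
open Cfsg.Agent.Lib.Blocks.PrincSylow Cfsg.Agent.Lib.Blocks.PIndex
open Cfsg.Agent.Lib.BlockT.Fong Cfsg.Agent.Lib.BlockH.Transport
open Cfsg.Agent.Lib.Char.Ortho Cfsg.Agent.Lib.Char.Basic Cfsg.Agent.Lib.Char.Complete
open scoped ComplexConjugate

universe u

variable {G : Type u} [Group G] [Fintype G] {M : Ideal AlgInt} {p : ℕ} [hp : Fact p.Prime]

/-- A restriction containing `η` restricts further to contain the restriction of `η`. -/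
theorem inner_restrict_ne_zero (N H : Subgroup G) [Fintype N] [Fintype H] (hNH : N ≤ H) (χ : IrrCharacter G)
    (θ : IrrCharacter N) (η : IrrCharacter H)
    (hη : ∀ n : N, (η : H → ℂ) (Subgroup.inclusion hNH n) = (θ : N → ℂ) n)
    (h : classInner (fun h : H => (χ : G → ℂ) h) (η : H → ℂ) ≠ 0) :
    classInner (fun n : N => (χ : G → ℂ) n) (θ : N → ℂ) ≠ 0 := by
  classical
  haveI := finite_irrCharacter (G := H)
  letI := Fintype.ofFinite (IrrCharacter H)
  have hc := isCharacter_restrict H (isCharacter_of_isIrrCharacter χ.2)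
  obtain ⟨a, ha⟩ := exists_nat_combination hc
  have h1 : classInner (fun h : H => (χ : G → ℂ) h) (η : H → ℂ) = a η := by
    rw [ha, classInner_of_nat_combination]
  have hb : ∀ τ : IrrCharacter H, ∃ b : ℕ, classInner ((τ : H → ℂ) ∘ Subgroup.inclusion hNH) (θ : N → ℂ) = b :=
    fun τ => exists_nat_classInner (isCharacter_comp _ (isCharacter_of_isIrrCharacter τ.2))
      (isCharacter_of_isIrrCharacter θ.2)
  choose b hb using hb
  have h2 : (fun n : N => (χ : G → ℂ) n) = ∑ τ : IrrCharacter H, a τ • ((τ : H → ℂ) ∘ Subgroup.inclusion hNH) := by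
    funext n
    have := congrFun ha (Subgroup.inclusion hNH n)
    simp only [Finset.sum_apply, Pi.smul_apply, Function.comp_apply] at this ⊢
    exact this
  rw [h2, classInner_sum_left]
  have h3 : ∀ τ : IrrCharacter H, classInner (a τ • ((τ : H → ℂ) ∘ Subgroup.inclusion hNH)) (θ : N → ℂ) =
      ((a τ * b τ : ℕ) : ℂ) := by
    intro τ
    have : a τ • ((τ : H → ℂ) ∘ Subgroup.inclusion hNH) = ((a τ : ℂ)) • ((τ : H → ℂ) ∘ Subgroup.inclusion hNH) := by
      funext n
      simp
    rw [this, classInner_smul_left, hb]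
    push_cast
    rfl
  simp only [h3]
  rw [← Nat.cast_sum]
  intro h0
  have h4 : ∑ τ : IrrCharacter H, a τ * b τ = 0 := by exact_mod_cast h0
  have h5 := (Finset.sum_eq_zero_iff.mp h4) η (Finset.mem_univ _)
  have h6 : b η = 1 := by
    have h7 : ((η : H → ℂ) ∘ Subgroup.inclusion hNH) = (θ : N → ℂ) := by
      funext n
      exact hη n
    have h8 := hb η
    rw [h7, classInner_self_of_isIrr θ.2] at h8
    exact_mod_cast h8.symm
  rw [h6, mul_one] at h5
  apply h
  rw [h1, h5]
  simp

/-- A character covering the principal block of a normal subgroup of `p`-power index lies in the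
principal block. -/
theorem mem_principal_of_covers {H : Type u} [Group H] [Fintype H] [hMp : M.IsPrime] (hM : IsPModular p M)
    (N' : Subgroup H) (hN' : N'.Normal) [Fintype N'] {k : ℕ} (hNi : N'.index = p ^ k) {η : IrrCharacter H}
    (hη : η ∈ covers N' (principalBlock M N')) : η ∈ principalBlock M H := by
  classical
  haveI := finite_irrCharacter (G := H)
  letI := Fintype.ofFinite (IrrCharacter H)
  haveI := finite_irrCharacter (G := N')
  letI := Fintype.ofFinite (IrrCharacter N')
  have hb : IsPBlock M (principalBlock M N') := isPBlock_principal M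
  have hinv : Cfsg.Agent.Lib.BlockT.Fong.IsInv hN' (principalBlock M N') := by
    intro t θ hθ
    have h1 : SameBlock M (fun _ : N' => (1 : ℂ)) (θ : N' → ℂ) := hθ
    have h2 := Cfsg.Agent.Lib.BlockT.Normal.sameBlock_conjOn hN' M t h1
    exact h2
  have honeN : oneI N' ∈ principalBlock M N' := mem_blockOf_self (oneI N')
  have hone : oneI H ∈ covers N' (principalBlock M N') := by
    refine ⟨oneI N', honeN, ?_⟩
    have : (fun n : N' => ((oneI H : IrrCharacter H) : H → ℂ) n) = ((oneI N' : IrrCharacter N') : N' → ℂ) := rfl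
    rw [this, classInner_self_of_isIrr (oneI N').2]
    exact one_ne_zero
  have key : ∀ χ : IrrCharacter H, χ ∈ covers N' (principalBlock M N') →
      blockOf M (χ : H → ℂ) = covers N' (principalBlock M N') := by
    intro χ hχ
    refine blockOf_eq_covers hN' hinv hb hχ fun g hg => ?_
    refine Cfsg.Agent.Lib.BlockP.Stable.blockCoeff_eq_zero hM ⟨χ, rfl⟩ ?_
    by_contra h
    exact hg (mem_of_coprime hN' hNi h)
  have h1 := key η hη
  have h2 := key (oneI H) hone
  have h3 : η ∈ blockOf M ((oneI H : IrrCharacter H) : H → ℂ) := by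
    rw [h2, ← h1]
    exact mem_blockOf_self η
  exact h3

/-- The inner product in terms of the block idempotent. -/
theorem lin_restr_idem (H : Subgroup G) [Fintype H] (A : Set (IrrCharacter G)) [DecidablePred (· ∈ A)]
    [Fintype (IrrCharacter G)] (η : IrrCharacter H) (m : IrrCharacter G → ℕ)
    (hm : ∀ χ : IrrCharacter G, classInner (fun h : H => (χ : G → ℂ) h) (η : H → ℂ) = m χ) :
    lin (η : H → ℂ) (restrCenter H (idem A)) = (Nat.card H : ℂ) * (Nat.card G : ℂ)⁻¹ *
      ((∑ χ : IrrCharacter G, if χ ∈ A then charDegree (χ : G → ℂ) * m χ else 0 : ℕ) : ℂ) := by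
  classical
  have hH0 : (Nat.card H : ℂ) ≠ 0 := Nat.cast_ne_zero.mpr Nat.card_pos.ne'
  rw [lin_apply]
  simp only [coe_restrCenter, coeff_restr, coeff_idem, blockCoeff_eq_sum]
  have h1 : ∀ χ : IrrCharacter G, ∑ h : H, conj ((χ : G → ℂ) h) * (η : H → ℂ) h = (Nat.card H : ℂ) * m χ := by
    intro χ
    have h2 := hm χ
    rw [classInner, inv_mul_eq_iff_eq_mul₀ hH0] at h2
    have h3 := congrArg conj h2
    rw [map_sum, map_mul, map_natCast, map_natCast] at h3
    rw [← h3]
    refine Finset.sum_congr rfl fun h _ => ?_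
    rw [map_mul, Complex.conj_conj, mul_comm]
  have h4 : ∀ χ : IrrCharacter G, (χ : G → ℂ) 1 = charDegree (χ : G → ℂ) := fun χ =>
    (Cfsg.Agent.Lib.Char.Degree.charDegree_natCast (isCharacter_of_isIrrCharacter χ.2)).symm
  calc _ = ∑ h : H, (Nat.card G : ℂ)⁻¹ * ∑ χ : IrrCharacter G, if χ ∈ A then
        (χ : G → ℂ) 1 * (conj ((χ : G → ℂ) h) * (η : H → ℂ) h) else 0 := by
        refine Finset.sum_congr rfl fun h _ => ?_
        rw [mul_assoc, Finset.sum_mul]
        congr 1
        refine Finset.sum_congr rfl fun χ _ => ?_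
        split_ifs
        · ring
        · simp
    _ = (Nat.card G : ℂ)⁻¹ * ∑ χ : IrrCharacter G, if χ ∈ A then
        (χ : G → ℂ) 1 * ∑ h : H, (conj ((χ : G → ℂ) h) * (η : H → ℂ) h) else 0 := by
        rw [← Finset.mul_sum, Finset.sum_comm]
        congr 1
        refine Finset.sum_congr rfl fun χ _ => ?_
        split_ifs
        · rw [Finset.mul_sum]
        · simp
    _ = _ := by
        push_cast
        rw [mul_comm ((Nat.card H : ℂ)), mul_assoc]
        congr 1
        rw [Finset.mul_sum]
        apply Finset.sum_congr rfl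
        intro χ _
        split_ifs
        · rw [h1, h4]
          ring
        · simp

theorem omega_one_notMem [hMp : M.IsPrime] [Fintype (IrrCharacter G)] (hM : IsPModular p M) (P : Sylow p G)
    (H : Subgroup G) [Fintype H] (hPH : (P : Subgroup G) ≤ H) :
    ¬ MemLocalIdeal M (omegaHom (oneI H) (restrCenter H (idem (principalBlock M G)))) := by
  classical
  have h2 := sum_principal_notMem hM (P : Subgroup G) P rfl hPH
  intro h3
  apply h2
  rw [omegaHom_apply, lin_apply] at h3
  rw [sum_eq_sum_subgroup H _ (fun g hg => if_neg hg)]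
  have e : ∑ h : H, (if (h : G) ∈ H then blockCoeff (principalBlock M G) (h : G) else 0) =
      ∑ h : H, ((restrCenter H (idem (principalBlock M G)) : Subalgebra.center ℂ (GA H)) : GA H).coeff h *
        ((oneI H : IrrCharacter H) : H → ℂ) h / ((oneI H : IrrCharacter H) : H → ℂ) 1 := by
    refine Finset.sum_congr rfl fun h _ => ?_
    rw [if_pos h.2]
    simp
  rw [e, ← Finset.sum_div]
  exact h3

set_option maxHeartbeats 2000000 in
/-- **An extendible `p'`-degree character of the principal block of `N` lies under a `p'`-degree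
member of the principal block of `G`.** -/
theorem exists_over [hMp : M.IsPrime] (hM : IsPModular p M) (N : Subgroup G) (hN : N.Normal) [Fintype N]
    (P : Sylow p G) (θ : IrrCharacter N) (hθ : θ ∈ principalBlock M N)
    (hdeg : ¬ p ∣ charDegree (θ : N → ℂ))
    (H : Subgroup G) [Fintype H] (hH : H = N ⊔ (P : Subgroup G)) (hNH : N ≤ H)
    (η : IrrCharacter H)
    (hη : ∀ n : N, (η : H → ℂ) (Subgroup.inclusion hNH n) = (θ : N → ℂ) n) :
    ∃ χ : IrrCharacter G, χ ∈ principalBlock M G ∧ ¬ p ∣ charDegree (χ : G → ℂ) ∧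
      classInner (fun n : N => (χ : G → ℂ) n) (θ : N → ℂ) ≠ 0 := by
  classical
  haveI := hN
  haveI := finite_irrCharacter (G := G)
  letI := Fintype.ofFinite (IrrCharacter G)
  haveI := finite_irrCharacter (G := H)
  letI := Fintype.ofFinite (IrrCharacter H)
  have hPH : (P : Subgroup G) ≤ H := hH ▸ le_sup_right
  set A := principalBlock M G with hA
  have hAb : IsPBlock M A := isPBlock_principal M
  have hel : idem A ∈ localCenter M G := idem_mem_localCenter hAb
  let N' : Subgroup H := N.subgroupOf H
  have hN' : N' = N.subgroupOf H := rfl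
  haveI hN'n : N'.Normal := Subgroup.normal_subgroupOf
  letI : Fintype N' := Fintype.ofFinite _
  have hidx : ∃ k, N'.index = p ^ k := by
    subst hH
    have h1 : N'.index = N.relIndex (P : Subgroup G) := by
      rw [hN']
      exact Subgroup.relIndex_sup_left (P : Subgroup G) N
    have h2 : N.relIndex (P : Subgroup G) ∣ Nat.card (P : Subgroup G) :=
      Subgroup.relIndex_dvd_card _ _
    obtain ⟨k, hk⟩ := IsPGroup.iff_card.mp P.isPGroup'
    rw [hk] at h2
    obtain ⟨j, -, hj⟩ := (Nat.dvd_prime_pow hp.out).mp h2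
    exact ⟨j, h1.trans hj⟩
  obtain ⟨k, hk⟩ := hidx
  -- transport `θ` to `N'`
  let σ : N ≃* N' := (Subgroup.subgroupOfEquivOfLe hNH).symm
  have hσ : ∀ n' : N', ((σ.symm n' : N) : G) = ((n' : H) : G) := fun n' => rfl
  have hθ' : irrMap σ θ ∈ principalBlock M N' := by
    have h1 : irrMap σ θ ∈ blockMap σ (principalBlock M N) := irrMap_mem_blockMap σ _ hθ
    rw [principalBlock_eq_blockOf, blockMap_blockOf] at h1
    exact h1
  have hηc : η ∈ covers N' (principalBlock M N') := by
    refine ⟨irrMap σ θ, hθ', ?_⟩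
    have : (fun n : N' => (η : H → ℂ) n) = ((irrMap σ θ : IrrCharacter N') : N' → ℂ) := by
      funext n'
      rw [irrMap_apply, ← hη]
      rfl
    rw [this, classInner_self_of_isIrr (irrMap σ θ).2]
    exact one_ne_zero
  have hη0 : η ∈ principalBlock M H := mem_principal_of_covers hM N' hN'n hk hηc
  -- the central element
  have hzl : restrCenter H (idem A) ∈ localCenter M H := restrCenter_mem_localCenter H hel
  have h1 : MemLocalIdeal M (omegaHom (oneI H) (restrCenter H (idem A)) - omegaHom η (restrCenter H (idem A))) :=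
    omegaHom_sub_mem_of_sameBlock (M := M) (χ := oneI H) (ψ := η) hη0 hzl
  have hT : ¬ MemLocalIdeal M (omegaHom (oneI H) (restrCenter H (idem A))) := omega_one_notMem hM P H hPH
  have hω : ¬ MemLocalIdeal M (omegaHom η (restrCenter H (idem A))) := by
    intro h2
    apply hT
    have := memLocalIdeal_add h1 h2
    simpa using this
  -- the multiplicities
  have hm := fun χ : IrrCharacter G => exists_nat_classInner
    (isCharacter_restrict H (isCharacter_of_isIrrCharacter χ.2)) (isCharacter_of_isIrrCharacter η.2)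
  choose m hm using hm
  by_contra hno
  push Not at hno
  have hW : p ∣ ∑ χ : IrrCharacter G, if χ ∈ A then charDegree (χ : G → ℂ) * m χ else 0 := by
    refine Finset.dvd_sum fun χ _ => ?_
    split_ifs with hχ
    · by_cases hdv : p ∣ charDegree (χ : G → ℂ)
      · exact hdv.mul_right _
      · have h2 := hno χ hχ hdv
        have h3 : m χ = 0 := by
          by_contra h4
          apply inner_restrict_ne_zero N H hNH χ θ η hη _ h2
          rw [hm χ]
          exact_mod_cast h4
        rw [h3, mul_zero]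
        exact dvd_zero _
    · exact dvd_zero _
  apply hω
  rw [omegaHom_apply, lin_restr_idem H A η m hm]
  have hη1 : (η : H → ℂ) 1 = (charDegree (θ : N → ℂ) : ℂ) := by
    rw [Cfsg.Agent.Lib.Char.Degree.charDegree_natCast (isCharacter_of_isIrrCharacter θ.2), ← hη]
    rfl
  have hidxG : ¬ p ∣ H.index := by
    intro hd
    exact P.not_dvd_index (hd.trans (Subgroup.index_dvd_of_le hPH))
  have hcards : (Nat.card H : ℂ) * (Nat.card G : ℂ)⁻¹ = (H.index : ℂ)⁻¹ := by
    have h2 := H.card_mul_index
    have hG0 : (Nat.card G : ℂ) ≠ 0 := Nat.cast_ne_zero.mpr Nat.card_pos.ne'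
    have hH0 : (Nat.card H : ℂ) ≠ 0 := Nat.cast_ne_zero.mpr Nat.card_pos.ne'
    have hi0 : (H.index : ℂ) ≠ 0 := by
      rw [Ne, Nat.cast_eq_zero]
      exact Subgroup.index_ne_zero_of_finite
    have h3 : (Nat.card G : ℂ) = (Nat.card H : ℂ) * (H.index : ℂ) := by exact_mod_cast h2.symm
    rw [h3]
    field_simp
  rw [hcards, hη1, div_eq_mul_inv]
  refine memLocalIdeal_mul_right ?_ (memLocalRing_natCast_inv hM hdeg)
  refine memLocalIdeal_mul_left (memLocalRing_natCast_inv hM hidxG) ?_
  exact (natCast_memLocalIdeal_iff hM _).mpr hW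

end Cfsg.Agent.Lib.Blocks.PrincOver
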